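/-
The rank one system of `StDefectAbs` in `SL_n`.
-/
import Mathlib
import Cfsg.Agent.Lib.KS71.StDefectAbs
import Cfsg.Agent.Lib.Classical.Flags.SLn

set_option autoImplicit false
set_option linter.unusedSectionVars false
set_option linter.unusedVariables false
set_option linter.unusedSimpArgs false
set_option linter.style.haveILetI false

namespace Cfsg.Agent.Lib.SLnBlock.Sys

open Matrix

variable {n : ℕ} {F : Type*} [Field F]

/-- The group. -/
abbrev SLn (n : ℕ) (F : Type*) [Field F] := Matrix.SpecialLinearGroup (Fin n) F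

/-! ### Triangular matrices -/

lemma ut_mul_diag {g h : Matrix (Fin n) (Fin n) F} (hg : ∀ a b, b < a → g a b = 0)
    (hh : ∀ a b, b < a → h a b = 0) (a : Fin n) : (g * h) a a = g a a * h a a := by
  rw [Matrix.mul_apply, Finset.sum_eq_single a]
  · intro k _ hk
    rcases lt_or_gt_of_ne hk with h1 | h1
    · rw [hg a k h1, zero_mul]
    · rw [hh k a h1, mul_zero]
  · simp

lemma ut_mul_lower {g h : Matrix (Fin n) (Fin n) F} (hg : ∀ a b, b < a → g a b = 0)
    (hh : ∀ a b, b < a → h a b = 0) (a b : Fin n) (hab : b < a) : (g * h) a b = 0 := by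
  rw [Matrix.mul_apply]
  apply Finset.sum_eq_zero
  intro k _
  by_cases hk : k < a
  · rw [hg a k hk, zero_mul]
  · rw [hh k b (lt_of_lt_of_le hab (not_lt.mp hk)), mul_zero]

lemma ut_mul_super {g h : Matrix (Fin n) (Fin n) F} (hg : ∀ a b, b < a → g a b = 0)
    (hh : ∀ a b, b < a → h a b = 0) {j j' : Fin n} (hj : j'.val = j.val + 1) :
    (g * h) j j' = g j j * h j j' + g j j' * h j' j' := by
  have hne : j ≠ j' := by
    intro e
    rw [e] at hj
    omega
  rw [Matrix.mul_apply, Finset.sum_eq_add j j' hne]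
  · intro k _ hk
    rcases lt_or_gt_of_ne hk.1 with h1 | h1
    · rw [hg j k h1, zero_mul]
    · have h3 : j' < k := by
        have h4 : j.val < k.val := h1
        have h5 : k.val ≠ j'.val := fun e => hk.2 (Fin.ext e)
        show j'.val < k.val
        omega
      rw [hh k j' h3, mul_zero]
  · simp
  · simp

/-- Upper triangular elements. -/
def BB (n : ℕ) (F : Type*) [Field F] : Subgroup (SLn n F) where
  carrier := {g | ∀ a b, b < a → g.1 a b = 0}
  mul_mem' := fun {x y} hx hy a b hab => by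
    rw [Matrix.SpecialLinearGroup.coe_mul]
    exact ut_mul_lower hx hy a b hab
  one_mem' := fun a b hab => by
    rw [Matrix.SpecialLinearGroup.coe_one, Matrix.one_apply_ne (ne_of_gt hab)]
  inv_mem' := fun {x} hx a b hab => by
    have e : (x⁻¹ : SLn n F).1 = x.1⁻¹ := by
      symm
      apply Matrix.inv_eq_left_inv
      rw [← Matrix.SpecialLinearGroup.coe_mul, inv_mul_cancel, Matrix.SpecialLinearGroup.coe_one]
    have hB : x.1.BlockTriangular id := fun a b hab => hx a b hab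
    have : Invertible x.1 := ⟨(x⁻¹ : SLn n F).1,
      by rw [← Matrix.SpecialLinearGroup.coe_mul, inv_mul_cancel, Matrix.SpecialLinearGroup.coe_one],
      by rw [← Matrix.SpecialLinearGroup.coe_mul, mul_inv_cancel, Matrix.SpecialLinearGroup.coe_one]⟩
    rw [e]
    exact Matrix.blockTriangular_inv_of_blockTriangular hB hab

lemma mem_BB {g : SLn n F} : g ∈ BB n F ↔ ∀ a b, b < a → g.1 a b = 0 := Iff.rfl

/-- Upper unitriangular elements. -/
def UU (n : ℕ) (F : Type*) [Field F] : Subgroup (SLn n F) where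
  carrier := {g | g ∈ BB n F ∧ ∀ a, g.1 a a = 1}
  mul_mem' := fun {x y} hx hy => by
    refine ⟨mul_mem hx.1 hy.1, fun a => ?_⟩
    rw [Matrix.SpecialLinearGroup.coe_mul, ut_mul_diag hx.1 hy.1, hx.2, hy.2, one_mul]
  one_mem' := ⟨one_mem _, fun a => by
    rw [Matrix.SpecialLinearGroup.coe_one, Matrix.one_apply_eq]⟩
  inv_mem' := fun {x} hx => by
    refine ⟨inv_mem hx.1, fun a => ?_⟩
    have h1 := ut_mul_diag (inv_mem hx.1) hx.1 a
    rw [← Matrix.SpecialLinearGroup.coe_mul, inv_mul_cancel, Matrix.SpecialLinearGroup.coe_one,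
      Matrix.one_apply_eq, hx.2, mul_one] at h1
    exact h1.symm

lemma mem_UU {g : SLn n F} : g ∈ UU n F ↔ g ∈ BB n F ∧ ∀ a, g.1 a a = 1 := Iff.rfl

lemma UU_le_BB : UU n F ≤ BB n F := fun _ h => h.1

lemma UU_super {g h : SLn n F} (hg : g ∈ UU n F) (hh : h ∈ UU n F) {j j' : Fin n} (hj : j'.val = j.val + 1) :
    (g * h).1 j j' = g.1 j j' + h.1 j j' := by
  rw [Matrix.SpecialLinearGroup.coe_mul, ut_mul_super hg.1 hh.1 hj, hg.2, hh.2, one_mul, mul_one, add_comm]

/-- Elements of `U` with vanishing entry at `(j, j')`. -/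
def Uc {j j' : Fin n} (hj : j'.val = j.val + 1) : Subgroup (SLn n F) where
  carrier := {g | g ∈ UU n F ∧ g.1 j j' = 0}
  mul_mem' := fun {x y} hx hy => by
    refine ⟨mul_mem hx.1 hy.1, ?_⟩
    rw [UU_super hx.1 hy.1 hj, hx.2, hy.2, add_zero]
  one_mem' := ⟨one_mem _, by
    have hne : j ≠ j' := by
      intro e
      rw [e] at hj
      omega
    rw [Matrix.SpecialLinearGroup.coe_one, Matrix.one_apply_ne hne]⟩
  inv_mem' := fun {x} hx => by
    refine ⟨inv_mem hx.1, ?_⟩
    have hne : j ≠ j' := by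
      intro e
      rw [e] at hj
      omega
    have h1 := UU_super (inv_mem hx.1) hx.1 hj
    rw [inv_mul_cancel, Matrix.SpecialLinearGroup.coe_one, Matrix.one_apply_ne hne, hx.2, add_zero] at h1
    exact h1.symm

lemma mem_Uc {j j' : Fin n} {hj : j'.val = j.val + 1} {g : SLn n F} :
    g ∈ Uc hj ↔ g ∈ UU n F ∧ g.1 j j' = 0 := Iff.rfl

/-! ### Elementary matrices -/

/-- An elementary matrix. -/
def el {a b : Fin n} (h : a ≠ b) (t : F) : SLn n F :=
  ⟨Matrix.transvection a b t, Matrix.det_transvection_of_ne a b h t⟩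

lemma el_val {a b : Fin n} (h : a ≠ b) (t : F) : (el h t).1 = 1 + Matrix.single a b t := rfl

lemma el_apply {a b : Fin n} (h : a ≠ b) (t : F) (x y : Fin n) :
    (el h t).1 x y = (if x = y then 1 else 0) + (if x = a ∧ y = b then t else 0) := by
  rw [el_val, Matrix.add_apply, Matrix.one_apply, Matrix.single_apply]
  congr 1
  by_cases e : x = a ∧ y = b
  · rw [if_pos e, if_pos ⟨e.1.symm, e.2.symm⟩]
  · rw [if_neg e, if_neg (fun e' => e ⟨e'.1.symm, e'.2.symm⟩)]

lemma el_add {a b : Fin n} (h : a ≠ b) (s t : F) : el h (s + t) = el h s * el h t := by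
  apply Subtype.ext
  rw [Matrix.SpecialLinearGroup.coe_mul]
  exact (Matrix.transvection_mul_transvection_same a b h s t).symm

lemma el_zero {a b : Fin n} (h : a ≠ b) : el h (0 : F) = 1 := by
  apply Subtype.ext
  rw [Matrix.SpecialLinearGroup.coe_one]
  exact Matrix.transvection_zero a b

lemma el_inv {a b : Fin n} (h : a ≠ b) (t : F) : (el h t)⁻¹ = el h (-t) := by
  apply inv_eq_of_mul_eq_one_right
  rw [← el_add, add_neg_cancel, el_zero]

lemma el_mem_UU {a b : Fin n} (h : a ≠ b) (hlt : a < b) (t : F) : el h t ∈ UU n F := by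
  refine ⟨?_, ?_⟩
  · intro x y hxy
    rw [el_apply, if_neg (ne_of_gt hxy), if_neg, add_zero]
    rintro ⟨rfl, rfl⟩
    exact absurd (lt_trans hxy hlt) (lt_irrefl _)
  · intro x
    rw [el_apply, if_pos rfl, if_neg, add_zero]
    rintro ⟨rfl, e⟩
    exact h e

lemma el_mul_apply {a b : Fin n} (h : a ≠ b) (t : F) (M : Matrix (Fin n) (Fin n) F) (x y : Fin n) :
    ((el h t).1 * M) x y = M x y + (if x = a then t * M b y else 0) := by
  rw [el_val, add_mul, one_mul, Matrix.add_apply]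
  congr 1
  by_cases e : x = a
  · subst e
    rw [if_pos rfl, Matrix.single_mul_apply_same]
  · rw [if_neg e, Matrix.single_mul_apply_of_ne t a b x y e M]

lemma mul_el_apply {a b : Fin n} (h : a ≠ b) (t : F) (M : Matrix (Fin n) (Fin n) F) (x y : Fin n) :
    (M * (el h t).1) x y = M x y + (if y = b then M x a * t else 0) := by
  rw [el_val, mul_add, mul_one, Matrix.add_apply]
  congr 1
  by_cases e : y = b
  · subst e
    rw [if_pos rfl, Matrix.mul_single_apply_same]
  · rw [if_neg e, Matrix.mul_single_apply_of_ne t a b x y e M]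

/-! ### The embedding of two by two matrices -/

/-- Two by two matrices acting on two coordinates. -/
def emb (j j' : Fin n) (A : Matrix (Fin 2) (Fin 2) F) : Matrix (Fin n) (Fin n) F := fun a b =>
  if a = j then (if b = j then A 0 0 else if b = j' then A 0 1 else 0)
  else if a = j' then (if b = j then A 1 0 else if b = j' then A 1 1 else 0)
  else if a = b then 1 else 0

section emb

variable {j j' : Fin n} (hne : j ≠ j') (A B : Matrix (Fin 2) (Fin 2) F) (c : Matrix (Fin n) (Fin n) F)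

include hne

lemma emb_j_j : emb j j' A j j = A 0 0 := by simp [emb]
lemma emb_j_j' : emb j j' A j j' = A 0 1 := by simp [emb, hne.symm]
lemma emb_j'_j : emb j j' A j' j = A 1 0 := by simp [emb, hne.symm]
lemma emb_j'_j' : emb j j' A j' j' = A 1 1 := by simp [emb, hne.symm]
lemma emb_j_o {b : Fin n} (h1 : b ≠ j) (h2 : b ≠ j') : emb j j' A j b = 0 := by simp [emb, h1, h2]
lemma emb_j'_o {b : Fin n} (h1 : b ≠ j) (h2 : b ≠ j') : emb j j' A j' b = 0 := by simp [emb, h1, h2, hne.symm]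
lemma emb_o {a b : Fin n} (h1 : a ≠ j) (h2 : a ≠ j') : emb j j' A a b = if a = b then 1 else 0 := by
  simp [emb, h1, h2]

lemma emb_mul_j (b : Fin n) : (emb j j' A * c) j b = A 0 0 * c j b + A 0 1 * c j' b := by
  rw [Matrix.mul_apply, Finset.sum_eq_add j j' hne, emb_j_j hne, emb_j_j' hne]
  · intro k _ hk
    rw [emb_j_o hne A hk.1 hk.2, zero_mul]
  · simp
  · simp

lemma emb_mul_j' (b : Fin n) : (emb j j' A * c) j' b = A 1 0 * c j b + A 1 1 * c j' b := by
  rw [Matrix.mul_apply, Finset.sum_eq_add j j' hne, emb_j'_j hne, emb_j'_j' hne]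
  · intro k _ hk
    rw [emb_j'_o hne A hk.1 hk.2, zero_mul]
  · simp
  · simp

lemma emb_mul_o {a : Fin n} (b : Fin n) (h1 : a ≠ j) (h2 : a ≠ j') : (emb j j' A * c) a b = c a b := by
  rw [Matrix.mul_apply, Finset.sum_eq_single a]
  · rw [emb_o hne A h1 h2, if_pos rfl, one_mul]
  · intro k _ hk
    rw [emb_o hne A h1 h2, if_neg (Ne.symm hk), zero_mul]
  · simp

lemma mul_emb_j (a : Fin n) : (c * emb j j' A) a j = c a j * A 0 0 + c a j' * A 1 0 := by
  rw [Matrix.mul_apply, Finset.sum_eq_add j j' hne, emb_j_j hne, emb_j'_j hne]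
  · intro k _ hk
    by_cases h1 : k = j
    · exact absurd h1 hk.1
    by_cases h2 : k = j'
    · exact absurd h2 hk.2
    rw [emb_o hne A h1 h2, if_neg hk.1, mul_zero]
  · simp
  · simp

lemma mul_emb_j' (a : Fin n) : (c * emb j j' A) a j' = c a j * A 0 1 + c a j' * A 1 1 := by
  rw [Matrix.mul_apply, Finset.sum_eq_add j j' hne, emb_j_j' hne, emb_j'_j' hne]
  · intro k _ hk
    rw [emb_o hne A hk.1 hk.2, if_neg hk.2, mul_zero]
  · simp
  · simp

lemma mul_emb_o (a : Fin n) {b : Fin n} (h1 : b ≠ j) (h2 : b ≠ j') : (c * emb j j' A) a b = c a b := by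
  rw [Matrix.mul_apply, Finset.sum_eq_single b]
  · rw [emb_o hne A h1 h2, if_pos rfl, mul_one]
  · intro k _ hk
    by_cases h3 : k = j
    · subst h3
      rw [emb_j_o hne A h1 h2, mul_zero]
    by_cases h4 : k = j'
    · subst h4
      rw [emb_j'_o hne A h1 h2, mul_zero]
    rw [emb_o hne A h3 h4, if_neg hk, mul_zero]
  · simp

lemma emb_mul : emb j j' (A * B) = emb j j' A * emb j j' B := by
  ext a b
  by_cases ha : a = j
  · subst ha
    rw [emb_mul_j hne]
    by_cases hb : b = a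
    · subst hb
      rw [emb_j_j hne, emb_j_j hne, emb_j'_j hne, Matrix.mul_apply, Fin.sum_univ_two]
    by_cases hb' : b = j'
    · subst hb'
      rw [emb_j_j' hne, emb_j_j' hne, emb_j'_j' hne, Matrix.mul_apply, Fin.sum_univ_two]
    rw [emb_j_o hne _ hb hb', emb_j_o hne _ hb hb', emb_j'_o hne _ hb hb']
    simp
  by_cases ha' : a = j'
  · subst ha'
    rw [emb_mul_j' hne]
    by_cases hb : b = j
    · subst hb
      rw [emb_j'_j hne, emb_j_j hne, emb_j'_j hne, Matrix.mul_apply, Fin.sum_univ_two]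
    by_cases hb' : b = a
    · subst hb'
      rw [emb_j'_j' hne, emb_j_j' hne, emb_j'_j' hne, Matrix.mul_apply, Fin.sum_univ_two]
    rw [emb_j'_o hne _ hb hb', emb_j_o hne _ hb hb', emb_j'_o hne _ hb hb']
    simp
  rw [emb_mul_o hne _ _ _ ha ha', emb_o hne _ ha ha', emb_o hne _ ha ha']

lemma emb_one : emb j j' (1 : Matrix (Fin 2) (Fin 2) F) = 1 := by
  ext a b
  by_cases ha : a = j
  · subst ha
    by_cases hb : b = a
    · subst hb
      rw [emb_j_j hne]
      simp
    by_cases hb' : b = j'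
    · subst hb'
      rw [emb_j_j' hne, Matrix.one_apply_ne hne]
      simp
    rw [emb_j_o hne _ hb hb', Matrix.one_apply_ne (Ne.symm hb)]
  by_cases ha' : a = j'
  · subst ha'
    by_cases hb : b = j
    · subst hb
      rw [emb_j'_j hne, Matrix.one_apply_ne (Ne.symm hne)]
      simp
    by_cases hb' : b = a
    · subst hb'
      rw [emb_j'_j' hne]
      simp
    rw [emb_j'_o hne _ hb hb', Matrix.one_apply_ne (Ne.symm hb')]
  rw [emb_o hne _ ha ha', Matrix.one_apply]

lemma el_eq_emb (t : F) : (el hne t).1 = emb j j' !![1, t; 0, 1] := by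
  ext a b
  rw [el_apply]
  by_cases ha : a = j
  · subst ha
    by_cases hb : b = a
    · subst hb
      rw [emb_j_j hne]
      simp [hne]
    by_cases hb' : b = j'
    · subst hb'
      rw [emb_j_j' hne]
      simp [hne]
    rw [emb_j_o hne _ hb hb']
    simp [hb, hb', Ne.symm hb]
  by_cases ha' : a = j'
  · subst ha'
    by_cases hb : b = j
    · subst hb
      rw [emb_j'_j hne]
      simp [ha, hne]
    by_cases hb' : b = a
    · subst hb'
      rw [emb_j'_j' hne]
      simp [ha]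
    rw [emb_j'_o hne _ hb hb']
    simp [ha, Ne.symm hb']
  rw [emb_o hne _ ha ha']
  simp [ha]

lemma el_eq_emb' (t : F) : (el hne.symm t).1 = emb j j' !![1, 0; t, 1] := by
  ext a b
  rw [el_apply]
  by_cases ha : a = j
  · subst ha
    by_cases hb : b = a
    · subst hb
      rw [emb_j_j hne]
      simp [hne]
    by_cases hb' : b = j'
    · subst hb'
      rw [emb_j_j' hne]
      simp [hne]
    rw [emb_j_o hne _ hb hb']
    simp [hne, Ne.symm hb]
  by_cases ha' : a = j'
  · subst ha'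
    by_cases hb : b = j
    · subst hb
      rw [emb_j'_j hne]
      simp [ha, hne.symm]
    by_cases hb' : b = a
    · subst hb'
      rw [emb_j'_j' hne]
      simp [ha, hne.symm]
    rw [emb_j'_o hne _ hb hb']
    simp [hb, Ne.symm hb']
  rw [emb_o hne _ ha ha']
  simp [ha, ha']

end emb

/-- The sign in the conjugation by the reflection. -/
def eps (j' : Fin n) (a : Fin n) : F := if a = j' then -1 else 1

lemma eps_sq (j' a : Fin n) : eps (F := F) j' a * eps j' a = 1 := by
  unfold eps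
  split_ifs <;> simp

section rank1

variable {j j' : Fin n} (hj : j'.val = j.val + 1)

include hj

lemma ne_of_succ : j ≠ j' := by
  intro e
  rw [e] at hj
  omega

lemma lt_of_succ : j < j' := by
  show j.val < j'.val
  omega

/-- The root element. -/
def xx (t : F) : SLn n F := el (ne_of_succ hj) t

/-- The opposite root element. -/
def yy (t : F) : SLn n F := el (ne_of_succ hj).symm t

/-- The reflection. -/
def ss : SLn n F := xx hj 1 * yy hj (-1) * xx hj 1

/-- The inverse of the reflection. -/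
def ss' : SLn n F := xx hj (-1) * yy hj 1 * xx hj (-1)

/-- The torus element. -/
def hh (t : F) : SLn n F := xx hj t * yy hj (-t⁻¹) * xx hj t * ss' hj

lemma xx_val (t : F) : (xx hj t).1 = emb j j' !![1, t; 0, 1] := el_eq_emb (ne_of_succ hj) t
lemma yy_val (t : F) : (yy hj t).1 = emb j j' !![1, 0; t, 1] := el_eq_emb' (ne_of_succ hj) t

lemma ss_val : (ss (F := F) hj).1 = emb j j' !![0, 1; -1, 0] := by
  have hne := ne_of_succ hj
  rw [ss, Matrix.SpecialLinearGroup.coe_mul, Matrix.SpecialLinearGroup.coe_mul, xx_val, yy_val,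
    ← emb_mul hne, ← emb_mul hne]
  congr 1
  simp [Matrix.mul_fin_two]

lemma ss'_val : (ss' (F := F) hj).1 = emb j j' !![0, -1; 1, 0] := by
  have hne := ne_of_succ hj
  rw [ss', Matrix.SpecialLinearGroup.coe_mul, Matrix.SpecialLinearGroup.coe_mul, xx_val, yy_val,
    ← emb_mul hne, ← emb_mul hne]
  congr 1
  simp [Matrix.mul_fin_two]

lemma ss_mul_ss' : ss (F := F) hj * ss' hj = (1 : SLn n F) := by
  have hne := ne_of_succ hj
  apply Subtype.ext
  rw [Matrix.SpecialLinearGroup.coe_mul, ss_val, ss'_val, ← emb_mul hne, Matrix.SpecialLinearGroup.coe_one, ← emb_one hne]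
  congr 1
  simp [Matrix.mul_fin_two, Matrix.one_fin_two]

lemma ss_inv : (ss (F := F) hj)⁻¹ = ss' hj := inv_eq_of_mul_eq_one_right (ss_mul_ss' hj)

lemma hh_val {t : F} (ht : t ≠ 0) : (hh hj t).1 = emb j j' !![t, 0; 0, t⁻¹] := by
  have hne := ne_of_succ hj
  rw [hh, Matrix.SpecialLinearGroup.coe_mul, Matrix.SpecialLinearGroup.coe_mul, Matrix.SpecialLinearGroup.coe_mul,
    xx_val, yy_val, ss'_val, ← emb_mul hne, ← emb_mul hne, ← emb_mul hne]
  congr 1
  simp [Matrix.mul_fin_two, ht]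

lemma hh_one : hh hj (1 : F) = 1 := by
  have : hh hj (1 : F) = ss hj * ss' hj := by
    simp [hh, ss]
  rw [this, ss_mul_ss']

lemma rel_of {t : F} (ht : t ≠ 0) :
    ss hj * xx hj t * ss hj = xx hj (-t⁻¹) * ss hj * (hh hj t * (ss hj * ss hj)) * xx hj (-t⁻¹) := by
  have hne := ne_of_succ hj
  apply Subtype.ext
  simp only [Matrix.SpecialLinearGroup.coe_mul]
  rw [ss_val, xx_val, xx_val, hh_val hj ht]
  simp only [← emb_mul hne]
  congr 1
  simp [Matrix.mul_fin_two, ht]

lemma ss_xx_ss' (t : F) : ss hj * xx hj t * (ss hj)⁻¹ = yy hj (-t) := by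
  have hne := ne_of_succ hj
  apply Subtype.ext
  rw [ss_inv]
  simp only [Matrix.SpecialLinearGroup.coe_mul]
  rw [ss_val, xx_val, ss'_val, yy_val]
  simp only [← emb_mul hne]
  congr 1
  simp [Matrix.mul_fin_two]

lemma ss_conj_apply (c : Matrix (Fin n) (Fin n) F) (a b : Fin n) :
    (emb j j' !![0, 1; -1, 0] * c * emb j j' !![0, -1; 1, 0] : Matrix (Fin n) (Fin n) F) a b =
      eps j' a * eps j' b * c (Equiv.swap j j' a) (Equiv.swap j j' b) := by
  have hne := ne_of_succ hj
  by_cases hb1 : b = j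
  · rw [hb1, mul_emb_j hne]
    by_cases ha1 : a = j
    · rw [ha1, emb_mul_j hne, emb_mul_j hne]
      simp [eps, hne]
    by_cases ha2 : a = j'
    · rw [ha2, emb_mul_j' hne, emb_mul_j' hne]
      simp [eps, hne]
    · rw [emb_mul_o hne _ _ _ ha1 ha2, emb_mul_o hne _ _ _ ha1 ha2,
        Equiv.swap_apply_of_ne_of_ne ha1 ha2]
      simp [eps, hne, ha2]
  by_cases hb2 : b = j'
  · rw [hb2, mul_emb_j' hne]
    by_cases ha1 : a = j
    · rw [ha1, emb_mul_j hne, emb_mul_j hne]
      simp [eps, hne]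
    by_cases ha2 : a = j'
    · rw [ha2, emb_mul_j' hne, emb_mul_j' hne]
      simp [eps, hne]
    · rw [emb_mul_o hne _ _ _ ha1 ha2, emb_mul_o hne _ _ _ ha1 ha2,
        Equiv.swap_apply_of_ne_of_ne ha1 ha2]
      simp [eps, hne, ha2]
  · rw [mul_emb_o hne _ _ _ hb1 hb2, Equiv.swap_apply_of_ne_of_ne hb1 hb2]
    by_cases ha1 : a = j
    · rw [ha1, emb_mul_j hne]
      simp [eps, hne, hb2]
    by_cases ha2 : a = j'
    · rw [ha2, emb_mul_j' hne]
      simp [eps, hne, hb2]
    · rw [emb_mul_o hne _ _ _ ha1 ha2, Equiv.swap_apply_of_ne_of_ne ha1 ha2]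
      simp [eps, ha2, hb2]

lemma swap_lt {a b : Fin n} (hab : b < a) (hn : ¬ (a = j' ∧ b = j)) : Equiv.swap j j' b < Equiv.swap j j' a := by
  have h1 : b.val < a.val := hab
  have key : ∀ x : Fin n, (Equiv.swap j j' x).val = if x = j then j'.val else if x = j' then j.val else x.val := by
    intro x
    rw [Equiv.swap_apply_def]
    split_ifs <;> rfl
  show (Equiv.swap j j' b).val < (Equiv.swap j j' a).val
  rw [key, key]
  have e1 : a = j ↔ a.val = j.val := Fin.ext_iff
  have e2 : a = j' ↔ a.val = j'.val := Fin.ext_iff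
  have e3 : b = j ↔ b.val = j.val := Fin.ext_iff
  have e4 : b = j' ↔ b.val = j'.val := Fin.ext_iff
  rw [e2, e3] at hn
  simp only [e1, e2, e3, e4]
  split_ifs <;> omega

lemma ss_norm {c : SLn n F} (hc : c ∈ Uc hj) : ss hj * c * (ss hj)⁻¹ ∈ Uc (F := F) hj := by
  have hne := ne_of_succ hj
  have hlt := lt_of_succ hj
  have e : ∀ a b, (ss hj * c * (ss hj)⁻¹).1 a b = eps j' a * eps j' b * c.1 (Equiv.swap j j' a) (Equiv.swap j j' b) := by
    intro a b
    rw [ss_inv, Matrix.SpecialLinearGroup.coe_mul, Matrix.SpecialLinearGroup.coe_mul, ss_val, ss'_val]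
    exact ss_conj_apply hj _ a b
  refine ⟨⟨?_, ?_⟩, ?_⟩
  · intro a b hab
    rw [e]
    by_cases hn : a = j' ∧ b = j
    · rw [hn.1, hn.2, Equiv.swap_apply_right, Equiv.swap_apply_left, hc.2, mul_zero]
    · rw [hc.1.1 _ _ (swap_lt hj hab hn), mul_zero]
  · intro a
    rw [e, hc.1.2, mul_one, eps_sq]
  · rw [e, Equiv.swap_apply_left, Equiv.swap_apply_right, hc.1.1 j' j hlt, mul_zero]

lemma xx_super (t : F) : (xx hj t).1 j j' = t := by
  have hne := ne_of_succ hj
  rw [xx, el_apply, if_neg hne, if_pos ⟨rfl, rfl⟩, zero_add]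

lemma xx_mem (t : F) : xx hj t ∈ UU n F := el_mem_UU _ (lt_of_succ hj) t

lemma xx_add (s t : F) : xx hj (s + t) = xx hj s * xx hj t := el_add _ s t

lemma xx_inv (t : F) : (xx hj t)⁻¹ = xx hj (-t) := el_inv _ t

lemma xx_norm (t : F) {c : SLn n F} (hc : c ∈ Uc hj) : xx hj t * c * (xx hj t)⁻¹ ∈ Uc (F := F) hj := by
  have h1 := xx_mem hj t
  refine ⟨mul_mem (mul_mem h1 hc.1) (inv_mem h1), ?_⟩
  rw [UU_super (mul_mem h1 hc.1) (inv_mem h1) hj, UU_super h1 hc.1 hj, hc.2, xx_inv, xx_super, xx_super]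
  ring

lemma U_form {u : SLn n F} (hu : u ∈ UU n F) : ∃ c ∈ Uc (F := F) hj, ∃ t, u = c * xx hj t := by
  refine ⟨u * xx hj (-(u.1 j j')), ⟨mul_mem hu (xx_mem hj _), ?_⟩, u.1 j j', ?_⟩
  · rw [UU_super hu (xx_mem hj _) hj, xx_super]
    ring
  · rw [mul_assoc, ← xx_add]
    have : xx hj (-(u.1 j j') + u.1 j j') = (1 : SLn n F) := by
      rw [neg_add_cancel]
      exact el_zero _
    rw [this, mul_one]

lemma U_form' {u : SLn n F} (hu : u ∈ UU n F) : ∃ c ∈ Uc (F := F) hj, ∃ t, u = xx hj t * c := by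
  obtain ⟨c, hc, t, e⟩ := U_form hj (inv_mem hu)
  refine ⟨c⁻¹, inv_mem hc, -t, ?_⟩
  rw [← xx_inv, ← _root_.mul_inv_rev, ← e, inv_inv]

lemma card_U_eq [Fintype F] : Nat.card (UU n F) = Fintype.card F * Nat.card (Uc (F := F) hj) := by
  let φ : (Uc (F := F) hj) × F → UU n F := fun p => ⟨p.1.1 * xx hj p.2, mul_mem p.1.2.1 (xx_mem hj _)⟩
  have hφ : Function.Bijective φ := by
    constructor
    · rintro ⟨c, t⟩ ⟨c', t'⟩ e
      have e1 : c.1 * xx hj t = c'.1 * xx hj t' := congrArg Subtype.val e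
      have e2 : (c.1 * xx hj t).1 j j' = (c'.1 * xx hj t').1 j j' := by rw [e1]
      rw [UU_super c.2.1 (xx_mem hj _) hj, UU_super c'.2.1 (xx_mem hj _) hj, c.2.2, c'.2.2, xx_super, xx_super,
        zero_add, zero_add] at e2
      subst e2
      have e3 : c.1 = c'.1 := mul_right_cancel e1
      exact Prod.ext (Subtype.ext e3) rfl
    · rintro ⟨u, hu⟩
      obtain ⟨c, hc, t, e⟩ := U_form hj hu
      exact ⟨(⟨c, hc⟩, t), Subtype.ext e.symm⟩
  rw [← Nat.card_congr (Equiv.ofBijective φ hφ), Nat.card_prod, Nat.card_eq_fintype_card (α := F), mul_comm]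

lemma emb_ut {A : Matrix (Fin 2) (Fin 2) F} (hA : A 1 0 = 0) : ∀ a b, b < a → emb j j' A a b = 0 := by
  have hne := ne_of_succ hj
  have hlt := lt_of_succ hj
  intro a b hab
  by_cases ha : a = j
  · rw [ha] at hab ⊢
    rw [emb_j_o hne _ (ne_of_lt hab) (ne_of_lt (lt_trans hab hlt))]
  by_cases ha' : a = j'
  · rw [ha'] at hab ⊢
    by_cases hb : b = j
    · rw [hb, emb_j'_j hne, hA]
    · rw [emb_j'_o hne _ hb (ne_of_lt hab)]
  · rw [emb_o hne _ ha ha', if_neg (ne_of_gt hab)]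

lemma hh_mem {t : F} (ht : t ≠ 0) : hh hj t ∈ BB n F := by
  intro a b hab
  rw [hh_val hj ht]
  exact emb_ut hj (by simp) a b hab

lemma ss_sq_mem : ss (F := F) hj * ss hj ∈ BB n F := by
  have hne := ne_of_succ hj
  intro a b hab
  rw [Matrix.SpecialLinearGroup.coe_mul, ss_val, ← emb_mul hne]
  exact emb_ut hj (by simp [Matrix.mul_fin_two]) a b hab

end rank1

lemma BB_norm {b u : SLn n F} (hb : b ∈ BB n F) (hu : u ∈ UU n F) : b * u * b⁻¹ ∈ UU n F := by
  refine ⟨mul_mem (mul_mem hb hu.1) (inv_mem hb), fun a => ?_⟩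
  rw [Matrix.SpecialLinearGroup.coe_mul, ut_mul_diag (mul_mem hb hu.1) (inv_mem hb),
    Matrix.SpecialLinearGroup.coe_mul, ut_mul_diag hb hu.1, hu.2, mul_one, ← ut_mul_diag hb (inv_mem hb),
    ← Matrix.SpecialLinearGroup.coe_mul, mul_inv_cancel, Matrix.SpecialLinearGroup.coe_one, Matrix.one_apply_eq]

/-! ### The Bruhat decomposition -/

section bruhat

open Cfsg.Agent.Lib.Classical.Flags

lemma dg_inv_val (d : Fin n → Fˣ) :
    (((dg d)⁻¹ : GL (Fin n) F) : Matrix (Fin n) (Fin n) F) = Matrix.diagonal (fun i => (((d i)⁻¹ : Fˣ) : F)) := rfl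

lemma det_dg (d : Fin n → Fˣ) : Matrix.GeneralLinearGroup.det (dg d : GL (Fin n) F) = ∏ i, d i := by
  apply Units.ext
  rw [Matrix.GeneralLinearGroup.val_det_apply, dg_val, Matrix.det_diagonal, Units.coe_prod]

theorem bruhat_SL [NeZero n] (g : SLn n F) :
    ∃ u ∈ UU n F, ∃ y : SLn n F, ∃ b ∈ BB n F, ∃ w : Equiv.Perm (Fin n), ∃ D : Fin n → Fˣ,
      (∀ a c, y.1 a c = if a = w c then (D c : F) else 0) ∧ g = u * y * b := by
  classical
  obtain ⟨b, hb, b', hb', w, e⟩ := bruhat_GL (incSL n F g)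
  have hb2 : (b : Matrix (Fin n) (Fin n) F).BlockTriangular id := fun i j hij => hb hij
  have hdetb : (b : Matrix (Fin n) (Fin n) F).det ≠ 0 :=
    ((Matrix.isUnit_iff_isUnit_det _).mp b.isUnit).ne_zero
  have hbd : ∀ a, (b : Matrix (Fin n) (Fin n) F) a a ≠ 0 := by
    intro a ha
    apply hdetb
    rw [Matrix.det_of_isUpperTriangular hb2]
    exact Finset.prod_eq_zero (Finset.mem_univ a) ha
  let d : Fin n → Fˣ := fun a => Units.mk0 _ (hbd a)
  -- the unipotent part
  let u₀ : GL (Fin n) F := b * (dg d)⁻¹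
  have hu₀ : ∀ a c, (u₀ : Matrix (Fin n) (Fin n) F) a c = (b : Matrix (Fin n) (Fin n) F) a c * (((d c)⁻¹ : Fˣ) : F) := by
    intro a c
    have : (u₀ : Matrix (Fin n) (Fin n) F) = (b : Matrix (Fin n) (Fin n) F) * Matrix.diagonal (fun i => (((d i)⁻¹ : Fˣ) : F)) := rfl
    rw [this, Matrix.mul_diagonal]
  have hu₀l : ∀ a c, c < a → (u₀ : Matrix (Fin n) (Fin n) F) a c = 0 := by
    intro a c hac
    rw [hu₀, hb2 hac, zero_mul]
  have hu₀d : ∀ a, (u₀ : Matrix (Fin n) (Fin n) F) a a = 1 := by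
    intro a
    rw [hu₀]
    exact mul_inv_cancel₀ (hbd a)
  have hu₀det : (u₀ : Matrix (Fin n) (Fin n) F).det = 1 := by
    rw [Matrix.det_of_isUpperTriangular (fun i j hij => hu₀l i j hij)]
    simp [hu₀d]
  let u : SLn n F := ⟨(u₀ : Matrix (Fin n) (Fin n) F), hu₀det⟩
  have hu : u ∈ UU n F := ⟨fun a c hac => hu₀l a c hac, hu₀d⟩
  -- the monomial part
  let δ : Fˣ := Matrix.GeneralLinearGroup.det (dg d * Pm F w)
  let e₁ : Fin n → Fˣ := Function.update 1 0 δ⁻¹
  have he₁ : ∏ i, e₁ i = δ⁻¹ := by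
    rw [Finset.prod_eq_single (0 : Fin n)]
    · simp [e₁]
    · intro i _ hi
      simp [e₁, Function.update_of_ne hi]
    · simp
  let y₀ : GL (Fin n) F := dg d * Pm F w * dg e₁
  have hy₀ : Matrix.GeneralLinearGroup.det y₀ = 1 := by
    simp only [y₀]
    rw [map_mul, det_dg, he₁]
    exact mul_inv_cancel δ
  have hy₀det : (y₀ : Matrix (Fin n) (Fin n) F).det = 1 := by
    rw [← Matrix.GeneralLinearGroup.val_det_apply, hy₀, Units.val_one]
  let y : SLn n F := ⟨(y₀ : Matrix (Fin n) (Fin n) F), hy₀det⟩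
  have hyv : ∀ a c, y.1 a c = if a = w c then ((d (w c) * e₁ c : Fˣ) : F) else 0 := by
    intro a c
    have : y.1 = Matrix.diagonal (fun i => (d i : F)) * pm F w * Matrix.diagonal (fun i => (e₁ i : F)) := rfl
    rw [this, Matrix.mul_diagonal, Matrix.diagonal_mul]
    simp only [pm]
    by_cases h : a = w c
    · rw [if_pos h, if_pos h, h, mul_one, Units.val_mul]
    · rw [if_neg h, if_neg h, mul_zero, zero_mul]
  -- the Borel part
  let b₁ : GL (Fin n) F := (dg e₁)⁻¹ * b'
  have hb₁ : b₁ ∈ Bor (n := n) F := mul_mem (inv_mem (dg_mem_Bor e₁)) hb'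
  have heq : incSL n F g = u₀ * y₀ * b₁ := by
    rw [e]
    simp only [u₀, y₀, b₁]
    group
  have hb₁det : (b₁ : Matrix (Fin n) (Fin n) F).det = 1 := by
    have h1 := congrArg Matrix.GeneralLinearGroup.det heq
    have h2 : Matrix.GeneralLinearGroup.det (incSL n F g) = 1 := by
      apply Units.ext
      rw [Matrix.GeneralLinearGroup.val_det_apply, incSL_val, g.2, Units.val_one]
    have h3 : Matrix.GeneralLinearGroup.det u₀ = 1 := by
      apply Units.ext
      rw [Matrix.GeneralLinearGroup.val_det_apply, hu₀det, Units.val_one]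
    rw [h2, map_mul, map_mul, h3, hy₀, one_mul, one_mul] at h1
    rw [← Matrix.GeneralLinearGroup.val_det_apply, ← h1, Units.val_one]
  let b₂ : SLn n F := ⟨(b₁ : Matrix (Fin n) (Fin n) F), hb₁det⟩
  have hb₂ : b₂ ∈ BB n F := fun a c hac => hb₁ hac
  refine ⟨u, hu, y, b₂, hb₂, w, fun c => d (w c) * e₁ c, hyv, ?_⟩
  apply Matrix.SpecialLinearGroup.toGL_injective
  show incSL n F g = incSL n F (u * y * b₂)
  have e1 : incSL n F u = u₀ := Units.ext rfl
  have e2 : incSL n F y = y₀ := Units.ext rfl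
  have e3 : incSL n F b₂ = b₁ := Units.ext rfl
  rw [heq, map_mul, map_mul, e1, e2, e3]

end bruhat

lemma el_conj_mono {y : SLn n F} {w : Equiv.Perm (Fin n)} {D : Fin n → Fˣ}
    (hy : ∀ a c, y.1 a c = if a = w c then (D c : F) else 0) {a a' c c' : Fin n} (ha : w c = a) (ha' : w c' = a')
    (hne : a ≠ a') (hcc : c ≠ c') (t : F) :
    y⁻¹ * el hne t * y = el hcc (t * D c' / D c) := by
  have key : el hne t * y = y * el hcc (t * D c' / D c) := by
    apply Subtype.ext
    rw [Matrix.SpecialLinearGroup.coe_mul, Matrix.SpecialLinearGroup.coe_mul]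
    ext x z
    rw [el_mul_apply, mul_el_apply]
    congr 1
    by_cases hz : z = c'
    · rw [if_pos hz, hz, hy, hy, if_pos ha'.symm]
      by_cases hx : x = a
      · rw [if_pos hx, if_pos (by rw [hx, ha])]
        have h0 : (D c : F) ≠ 0 := (D c).ne_zero
        field_simp
      · rw [if_neg hx, if_neg (by rw [ha]; exact hx), zero_mul]
    · have h0 : y.1 a' z = 0 := by
        rw [hy, if_neg]
        intro e
        rw [← ha'] at e
        exact hz (w.injective e).symm
      rw [if_neg hz, h0, mul_zero]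
      simp
  rw [mul_assoc, key, inv_mul_cancel_left]

section sysS

variable {j j' : Fin n} (hj : j'.val = j.val + 1)

include hj

lemma bruhat_of (g : SLn n F) : ∃ t, ∃ c ∈ Uc (F := F) hj, ∃ y, ∃ b ∈ BB n F,
    (∀ u, y⁻¹ * xx hj u * y ∈ UU n F) ∧ (g = xx hj t * c * y * b ∨ g = xx hj t * c * ss hj * y * b) := by
  haveI : NeZero n := ⟨by have := j.2; omega⟩
  have hne := ne_of_succ hj
  obtain ⟨u, hu, y, b, hb, w, D, hy, e⟩ := bruhat_SL g
  obtain ⟨c, hc, t, e'⟩ := U_form' hj hu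
  have e1 : w (w⁻¹ j) = j := by simp
  have e2 : w (w⁻¹ j') = j' := by simp
  have hcc : w⁻¹ j ≠ w⁻¹ j' := fun h => hne (w⁻¹.injective h)
  rcases lt_or_gt_of_ne hcc with hlt | hgt
  · refine ⟨t, c, hc, y, b, hb, ?_, Or.inl ?_⟩
    · intro τ
      rw [xx, el_conj_mono hy e1 e2 hne hcc τ]
      exact el_mem_UU _ hlt _
    · rw [e, e']
  · refine ⟨t, c, hc, (ss hj)⁻¹ * y, b, hb, ?_, Or.inr ?_⟩
    · intro τ
      have e3 : ((ss hj)⁻¹ * y)⁻¹ * xx hj τ * ((ss hj)⁻¹ * y) = y⁻¹ * (ss hj * xx hj τ * (ss hj)⁻¹) * y := by group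
      rw [e3, ss_xx_ss', yy, el_conj_mono hy e2 e1 hne.symm hcc.symm (-τ)]
      exact el_mem_UU _ hgt _
    · rw [e, e']
      group

/-- The system of the abstract argument in `SL_n`. -/
theorem sys [Fintype F] : Cfsg.Agent.Lib.KS71.StDefectAbs.Sys (UU n F) (Uc (F := F) hj) (BB n F) (xx hj) (hh hj) (ss hj) where
  x_add := xx_add hj
  x_mem := xx_mem hj
  Uj_le := fun _ h => h.1
  U_form := fun _ hu => U_form hj hu
  x_norm := fun t _ hc => xx_norm hj t hc
  s_norm := fun _ hc => by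
    have := ss_norm hj hc
    rwa [ss_inv] at this ⊢
  B_norm := fun _ hb _ hu => BB_norm hb hu
  h_mem := fun _ ht => hh_mem hj ht
  h_one := hh_one hj
  ss_mem := ss_sq_mem hj
  rel := fun _ ht => rel_of hj ht
  card_U := card_U_eq hj
  bruhat := bruhat_of hj

end sysS

end Cfsg.Agent.Lib.SLnBlock.Sys
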