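/-
The Steinberg character is the only irreducible character of `p`-defect zero of `SL_n(F)`, `F` of characteristic `p`.
-/
import Mathlib
import Cfsg.Agent.Lib.SLnBlock.Sys
import Cfsg.Agent.Lib.Classical.Flags.PSLn
import Cfsg.Agent.Lib.Char.DefectZero
import Cfsg.Agent.Lib.Char.Ortho

set_option autoImplicit false
set_option linter.unusedSectionVars false
set_option linter.unusedVariables false
set_option linter.unusedSimpArgs false
set_option linter.style.haveILetI false

namespace Cfsg.Agent.Lib.SLnBlock.Zero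

open Cfsg Matrix Module
open Cfsg.Agent.Lib.SLnBlock.Sys
open Cfsg.Agent.Lib.Classical.Flags
open Cfsg.Agent.Lib.KS71.StDefectAbs
open scoped ComplexConjugate

variable {n : ℕ} {F : Type*} [Field F]

/-! ### Unipotent elements have `p`-power order -/

lemma exists_pow_eq_one_of_nilp (p : ℕ) [hp : Fact p.Prime] [CharP F p] [NeZero n] {g : SLn n F}
    (hg : IsNilpotent (g.1 - 1)) : ∃ m, g ^ p ^ m = 1 := by
  obtain ⟨k, hk⟩ := hg
  haveI : Nonempty (Fin n) := ⟨0⟩
  haveI : CharP (Matrix (Fin n) (Fin n) F) p := Matrix.charP p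
  refine ⟨k, ?_⟩
  have hle : k ≤ p ^ k := (Nat.lt_pow_self hp.out.one_lt).le
  have h1 : (g.1 - 1) ^ p ^ k = 0 := pow_eq_zero_of_le hle hk
  rw [sub_pow_char_pow_of_commute p k (Commute.one_right _), one_pow, sub_eq_zero] at h1
  apply Subtype.ext
  rw [Matrix.SpecialLinearGroup.coe_pow, h1, Matrix.SpecialLinearGroup.coe_one]

lemma dvd_orderOf_of_nilp (p : ℕ) [hp : Fact p.Prime] [CharP F p] [NeZero n] {g : SLn n F}
    (hg : IsNilpotent (g.1 - 1)) (hne : g ≠ 1) : p ∣ orderOf g := by
  obtain ⟨m, hm⟩ := exists_pow_eq_one_of_nilp p hg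
  obtain ⟨a, -, ha⟩ := (Nat.dvd_prime_pow hp.out).mp (orderOf_dvd_of_pow_eq_one hm)
  rw [ha]
  apply dvd_pow_self
  rintro rfl
  rw [pow_zero, orderOf_eq_one_iff] at ha
  exact hne ha

lemma UU_nilp {u : SLn n F} (hu : u ∈ UU n F) : IsNilpotent (u.1 - 1) := by
  have key : ∀ m : ℕ, ∀ x y : Fin n, y.val < x.val + m → ((u.1 - 1) ^ m) x y = 0 := by
    intro m
    induction m with
    | zero =>
      intro x y h
      rw [pow_zero, Matrix.one_apply_ne]
      rintro rfl
      simp at h
    | succ m ih =>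
      intro x y h
      rw [pow_succ, Matrix.mul_apply]
      apply Finset.sum_eq_zero
      intro z _
      by_cases hz : z.val < x.val + m
      · rw [ih x z hz, zero_mul]
      · have hyz : y ≤ z := by
          show y.val ≤ z.val
          omega
        rw [Matrix.sub_apply]
        rcases eq_or_lt_of_le hyz with e | e
        · rw [← e, hu.2, Matrix.one_apply_eq, sub_self, mul_zero]
        · rw [hu.1 z y e, Matrix.one_apply_ne (ne_of_gt e), sub_self, mul_zero]
  refine ⟨n, ?_⟩
  ext x y
  rw [key n x y (by have := y.2; omega)]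
  rfl

/-! ### Diagonal elements -/

lemma diag_mul_apply {a : SLn n F} (ha : ∀ x y, x ≠ y → a.1 x y = 0) (M : Matrix (Fin n) (Fin n) F) (x y : Fin n) :
    (a.1 * M) x y = a.1 x x * M x y := by
  rw [Matrix.mul_apply, Finset.sum_eq_single x]
  · intro k _ hk
    rw [ha x k (Ne.symm hk), zero_mul]
  · simp

lemma det_diag {a : SLn n F} (ha : ∀ x y, x ≠ y → a.1 x y = 0) : ∏ x, a.1 x x = 1 := by
  rw [← Matrix.det_of_isUpperTriangular (fun i j hij => ha i j (ne_of_gt hij)), a.2]

lemma hh_off {j j' : Fin n} (hj : j'.val = j.val + 1) {t : F} (ht : t ≠ 0) {x y : Fin n} (hxy : x ≠ y) :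
    (hh hj t).1 x y = 0 := by
  have hne := ne_of_succ hj
  rw [hh_val hj ht]
  by_cases h1 : x = j
  · rw [h1] at hxy ⊢
    by_cases h2 : y = j'
    · rw [h2, emb_j_j' hne]
      simp
    · rw [emb_j_o hne _ (Ne.symm hxy) h2]
  by_cases h2 : x = j'
  · rw [h2] at hxy ⊢
    by_cases h3 : y = j
    · rw [h3, emb_j'_j hne]
      simp
    · rw [emb_j'_o hne _ h3 (Ne.symm hxy)]
  · rw [emb_o hne _ h1 h2, if_neg hxy]

lemma hh_j' {j j' : Fin n} (hj : j'.val = j.val + 1) {t : F} (ht : t ≠ 0) : (hh hj t).1 j' j' = t⁻¹ := by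
  have hne := ne_of_succ hj
  rw [hh_val hj ht, emb_j'_j' hne]
  simp

lemma hh_o {j j' : Fin n} (hj : j'.val = j.val + 1) {t : F} (ht : t ≠ 0) {x : Fin n} (h1 : x ≠ j) (h2 : x ≠ j') :
    (hh hj t).1 x x = 1 := by
  have hne := ne_of_succ hj
  rw [hh_val hj ht, emb_o hne _ h1 h2, if_pos rfl]

/-- The subgroup generated by the `h_j(t)` contains the diagonal elements. -/
lemma diag_mem [NeZero n] (K : Subgroup (SLn n F))
    (hK : ∀ (j j' : Fin n) (hj : j'.val = j.val + 1) (t : F), t ≠ 0 → hh hj t ∈ K) (k : ℕ) :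
    ∀ a : SLn n F, (∀ x y, x ≠ y → a.1 x y = 0) → (∀ x : Fin n, k + 1 ≤ x.val → a.1 x x = 1) → a ∈ K := by
  classical
  induction k with
  | zero =>
    intro a ha h1
    have h2 : a = 1 := by
      apply Subtype.ext
      ext x y
      rw [Matrix.SpecialLinearGroup.coe_one]
      by_cases hxy : x = y
      · rw [hxy, Matrix.one_apply_eq]
        by_cases hy : y.val = 0
        · have h3 := det_diag ha
          rw [Finset.prod_eq_single y] at h3
          · exact h3
          · intro b _ hb
            apply h1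
            have : b.val ≠ y.val := fun e => hb (Fin.ext e)
            omega
          · simp
        · exact h1 y (by omega)
      · rw [ha x y hxy, Matrix.one_apply_ne hxy]
    rw [h2]
    exact one_mem _
  | succ k ih =>
    intro a ha h1
    by_cases hk : k + 1 < n
    · let j : Fin n := ⟨k, by omega⟩
      let j' : Fin n := ⟨k + 1, hk⟩
      have hj : j'.val = j.val + 1 := rfl
      have hne := ne_of_succ hj
      have hdiag : ∀ x, a.1 x x ≠ 0 := by
        intro x hx
        have h3 := det_diag ha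
        rw [Finset.prod_eq_zero (f := fun x => a.1 x x) (Finset.mem_univ x) hx] at h3
        exact zero_ne_one h3
      set t := a.1 j' j' with ht
      have ht0 : t ≠ 0 := hdiag j'
      have h2 : a * hh hj t ∈ K := by
        apply ih
        · intro x y hxy
          rw [Matrix.SpecialLinearGroup.coe_mul, diag_mul_apply ha, hh_off hj ht0 hxy, mul_zero]
        · intro x hx
          rw [Matrix.SpecialLinearGroup.coe_mul, diag_mul_apply ha]
          by_cases h3 : x = j'
          · rw [h3, hh_j' hj ht0, ← ht]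
            exact mul_inv_cancel₀ ht0
          · have h4 : x ≠ j := by
              intro e
              rw [e] at hx
              have : j.val = k := rfl
              omega
            have h5 : k + 1 + 1 ≤ x.val := by
              have : x.val ≠ k + 1 := fun e => h3 (Fin.ext e)
              omega
            rw [hh_o hj ht0 h4 h3, mul_one]
            exact h1 x h5
      have h3 : a = (a * hh hj t) * (hh hj t)⁻¹ := by group
      rw [h3]
      exact mul_mem h2 (inv_mem (hK j j' hj t ht0))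
    · apply ih a ha
      intro x hx
      have := x.2
      omega

/-- A subgroup containing `U` and the `h_j(t)` contains `B`. -/
lemma BB_le [NeZero n] (K : Subgroup (SLn n F)) (hU : UU n F ≤ K)
    (hK : ∀ (j j' : Fin n) (hj : j'.val = j.val + 1) (t : F), t ≠ 0 → hh hj t ∈ K) : BB n F ≤ K := by
  classical
  intro b hb
  have hdet : (Matrix.diagonal fun x => b.1 x x).det = 1 := by
    rw [Matrix.det_diagonal, ← Matrix.det_of_isUpperTriangular (fun i j hij => hb i j hij), b.2]
  let a : SLn n F := ⟨Matrix.diagonal fun x => b.1 x x, hdet⟩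
  have hax : ∀ x, a.1 x x = b.1 x x := fun x => Matrix.diagonal_apply_eq _ _
  have ha : ∀ x y, x ≠ y → a.1 x y = 0 := fun x y h => Matrix.diagonal_apply_ne _ h
  have haB : a ∈ BB n F := fun x y h => ha x y (ne_of_gt h)
  have haK : a ∈ K := diag_mem K hK n a ha (fun x hx => by have := x.2; omega)
  have hu : b * a⁻¹ ∈ UU n F := by
    refine ⟨mul_mem hb (inv_mem haB), fun x => ?_⟩
    rw [Matrix.SpecialLinearGroup.coe_mul, ut_mul_diag hb (inv_mem haB), ← hax,
      ← ut_mul_diag haB (inv_mem haB), ← Matrix.SpecialLinearGroup.coe_mul, mul_inv_cancel,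
      Matrix.SpecialLinearGroup.coe_one, Matrix.one_apply_eq]
  have e : b = (b * a⁻¹) * a := by group
  rw [e]
  exact mul_mem (hU hu) haK

/-! ### The representation theory -/

section rep

variable [Fintype F] {V : Type*} [AddCommGroup V] [Module ℂ V] [FiniteDimensional ℂ V]
variable (ρ : Representation ℂ (SLn n F) V)

/-- The conclusions of the rank one argument. -/
theorem facts [NeZero n] (p : ℕ) [hp : Fact p.Prime] [CharP F p] [ρ.IsIrreducible]
    (hdeg : p ^ (Nat.card (SLn n F)).factorization p ∣ finrank ℂ V) :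
    Fx ρ (UU n F) ≠ ⊥ ∧ Fx ρ (BB n F) = Fx ρ (UU n F) ∧
      ∀ (j j' : Fin n) (hj : j'.val = j.val + 1), ∀ y ∈ Fx ρ (UU n F), ρ (ss hj) y = y → y = 0 := by
  classical
  haveI : Fintype (UU n F) := Fintype.ofFinite _
  have hvan : ∀ k ∈ UU n F, k ≠ 1 → ρ.character k = 0 := by
    intro k hk hk1
    apply Cfsg.Agent.Lib.Char.DefectZero.character_eq_zero_of_defect_zero ρ p
      ((Nat.card (SLn n F)).factorization p) hp.out (Nat.ordProj_dvd _ _)
      (Nat.pow_succ_factorization_not_dvd Nat.card_pos.ne' hp.out) hdeg k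
    exact dvd_orderOf_of_nilp p (UU_nilp hk) hk1
  have hpos : 0 < finrank ℂ V := Cfsg.Agent.Lib.Char.Central.finrank_pos_of_irreducible ρ
  have hd := finrank_Fx_of_vanish ρ (K := UU n F) hvan
  have h0 : Fx ρ (UU n F) ≠ ⊥ := by
    intro e
    rw [e, finrank_bot, zero_mul] at hd
    omega
  have hmain := fun (j j' : Fin n) (hj : j'.val = j.val + 1) => main ρ (sys (F := F) hj) hvan h0
  refine ⟨h0, ?_, ?_⟩
  · apply le_antisymm (Fx_anti ρ UU_le_BB)
    intro f hf
    have hle := BB_le (StabF ρ (Fx ρ (UU n F))) (fun u hu f hf => hf u hu)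
      (fun j j' hj t ht f hf => (hmain j j' hj).1 t ht f hf)
    exact fun b hb => hle hb f hf
  · intro j j' hj y hy hs
    have e1 := (hmain j j' hj).2 y hy
    have e2 : SS ρ (xx hj) (ss hj) y = (Fintype.card F : ℂ) • y := by
      rw [SS]
      have e3 : ∀ t, ρ (xx hj t * ss hj) y = y := by
        intro t
        rw [map_mul, Module.End.mul_apply, hs]
        exact hy _ (xx_mem hj t)
      simp_rw [e3]
      rw [Finset.sum_const, Finset.card_univ, Nat.cast_smul_eq_nsmul]
    have e4 : ρ (ss hj * ss hj) y = y := by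
      rw [map_mul, Module.End.mul_apply, hs, hs]
    rw [e2, e4] at e1
    have e5 : ((Fintype.card F : ℂ) + 1) • y = 0 := by
      rw [add_smul, one_smul, e1]
      simp
    have hq : ((Fintype.card F : ℂ) + 1) ≠ 0 := by
      have h9 : ((Fintype.card F + 1 : ℕ) : ℂ) ≠ 0 := Nat.cast_ne_zero.mpr (Nat.succ_ne_zero _)
      simpa using h9
    exact (smul_eq_zero.mp e5).resolve_left hq

end rep

/-! ### Permutation characters and `SL_n` -/

lemma card_fixed_comap {S G : Type*} [Group S] [Group G] (f : S →* G) (Q : Subgroup G)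
    (hs : ∀ g : G, ∃ s : S, ∃ q ∈ Q, g = f s * q) (s : S) :
    Nat.card (MulAction.fixedBy (G ⧸ Q) (f s)) = Nat.card (MulAction.fixedBy (S ⧸ Q.comap f) s) := by
  let φ : S ⧸ Q.comap f → G ⧸ Q := Quotient.map' f (by
    intro a b hab
    rw [QuotientGroup.leftRel_apply] at hab ⊢
    have := Subgroup.mem_comap.mp hab
    simpa using this)
  have hφ : ∀ a : S, φ (a : S ⧸ Q.comap f) = ((f a : G) : G ⧸ Q) := fun _ => rfl
  have hinj : Function.Injective φ := by
    intro x y
    induction x using QuotientGroup.induction_on with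
    | H a =>
      induction y using QuotientGroup.induction_on with
      | H b =>
        intro e
        rw [hφ, hφ, QuotientGroup.eq] at e
        rw [QuotientGroup.eq, Subgroup.mem_comap]
        simpa using e
  have hsurj : Function.Surjective φ := by
    intro x
    induction x using QuotientGroup.induction_on with
    | H g =>
      obtain ⟨s', q, hq, rfl⟩ := hs g
      refine ⟨(s' : S ⧸ Q.comap f), ?_⟩
      rw [hφ, QuotientGroup.eq]
      simpa using hq
  have hequiv : ∀ x, f s • φ x = φ x ↔ s • x = x := by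
    intro x
    have e : f s • φ x = φ (s • x) := by
      induction x using QuotientGroup.induction_on with
      | H a =>
        rw [MulAction.Quotient.smul_coe, hφ, MulAction.Quotient.smul_coe, hφ]
        simp only [smul_eq_mul, map_mul]
    rw [e, hinj.eq_iff]
  symm
  exact Nat.card_congr (Equiv.subtypeEquiv (Equiv.ofBijective φ ⟨hinj, hsurj⟩) (fun x => (hequiv x).symm))

lemma exists_SL_mul [NeZero n] (μ : Fin n → ℕ) (g : GL (Fin n) F) :
    ∃ s : SLn n F, ∃ q ∈ Cfsg.parabolicGL n F μ, g = incSL n F s * q := by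
  classical
  let e₁ : Fin n → Fˣ := Function.update 1 0 (Matrix.GeneralLinearGroup.det g)
  have he₁ : ∏ i, e₁ i = Matrix.GeneralLinearGroup.det g := by
    rw [Finset.prod_eq_single (0 : Fin n)]
    · simp [e₁]
    · intro i _ hi
      simp [e₁, Function.update_of_ne hi]
    · simp
  let q : GL (Fin n) F := dg e₁
  have hq : q ∈ Cfsg.parabolicGL n F μ := by
    rw [parabolicGL_eq]
    exact Bor_le (compLabel_mono μ) (dg_mem_Bor e₁)
  have hd : Matrix.GeneralLinearGroup.det (g * q⁻¹) = 1 := by
    rw [map_mul, map_inv, det_dg, he₁, mul_inv_cancel]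
  have hd' : ((g * q⁻¹ : GL (Fin n) F) : Matrix (Fin n) (Fin n) F).det = 1 := by
    rw [← Matrix.GeneralLinearGroup.val_det_apply, hd, Units.val_one]
  refine ⟨⟨_, hd'⟩, q, hq, ?_⟩
  have e : incSL n F ⟨_, hd'⟩ = g * q⁻¹ := Units.ext rfl
  rw [e, inv_mul_cancel_right]

/-- A composition with a part of size at least two has two adjacent positions with the same label. -/
lemma exists_adj {μ : Fin n → ℕ} (hμ : ∑ i, μ i = n) {i : Fin n} (hi : 2 ≤ μ i) :
    ∃ (j j' : Fin n) (_ : j'.val = j.val + 1), Cfsg.compLabel μ j = Cfsg.compLabel μ j' := by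
  have h1 := preSum_add_le hμ i
  refine ⟨⟨preSum μ i, by omega⟩, ⟨preSum μ i + 1, by omega⟩, rfl, ?_⟩
  rw [compLabel_eq i _ (by simp) (by simp; omega), compLabel_eq i _ (by simp) (by simp; omega)]

lemma sum_eq_of_perm {κ : Equiv.Perm (Fin n)} (hκ : ∀ i, (κ i).val ≤ 1 + i.val) :
    ∑ i : Fin n, (1 + i.val - (κ i).val) = n := by
  have h1 : ∑ i : Fin n, (κ i).val = ∑ i : Fin n, i.val := Equiv.sum_comp κ (fun i : Fin n => i.val)
  have h2 : ∑ i : Fin n, ((1 + i.val - (κ i).val) + (κ i).val) = ∑ i : Fin n, (1 + i.val) := by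
    apply Finset.sum_congr rfl
    intro i _
    exact Nat.sub_add_cancel (hκ i)
  rw [Finset.sum_add_distrib, Finset.sum_add_distrib, h1] at h2
  simp only [Finset.sum_const, Finset.card_univ, Fintype.card_fin, smul_eq_mul, mul_one] at h2
  omega

lemma exists_two {κ : Equiv.Perm (Fin n)} (hκ : ∀ i, (κ i).val ≤ 1 + i.val) (hne : κ ≠ 1) :
    ∃ i : Fin n, 2 ≤ 1 + i.val - (κ i).val := by
  by_contra hall
  push Not at hall
  have h1 := sum_eq_of_perm hκ
  have h2 : ∑ i : Fin n, (1 + i.val - (κ i).val) = ∑ i : Fin n, 1 := by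
    rw [h1]
    simp
  have h3 := (Finset.sum_eq_sum_iff_of_le (fun i _ => Nat.le_of_lt_succ (hall i))).mp h2
  apply hne
  ext i
  have h4 := h3 i (Finset.mem_univ i)
  have h5 := hκ i
  simp only [Equiv.Perm.coe_one, id_eq]
  omega

lemma preSum_ones (v : Fin n) : preSum (fun i : Fin n => 1 + i.val - ((1 : Equiv.Perm (Fin n)) i).val) v = v.val := by
  rw [preSum]
  have e : Finset.univ.filter (fun k : Fin n => k < v) = Finset.Iio v := by
    ext k
    simp
  rw [e]
  simp

lemma compLabel_ones (v : Fin n) : Cfsg.compLabel (fun i : Fin n => 1 + i.val - ((1 : Equiv.Perm (Fin n)) i).val) v = v.val := by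
  apply compLabel_eq
  · rw [preSum_ones]
  · rw [preSum_ones]
    simp

/-- The Steinberg character of `SL_n`. -/
noncomputable def St (n : ℕ) (F : Type*) [Field F] : SLn n F → ℂ :=
  fun s => Cfsg.unipotentCharacterGL n F (fun _ => 1) (incSL n F s)

theorem St_irr [Fintype F] [NeZero n] : IsIrrCharacter (SLn n F) (St n F) := St_SL_irr n

section main

variable [Fintype F] [NeZero n] {V : Type*} [AddCommGroup V] [Module ℂ V] [FiniteDimensional ℂ V]
variable (ρ : Representation ℂ (SLn n F) V)

/-- The parabolic subgroup of `SL_n`. -/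
abbrev PK (κ : Equiv.Perm (Fin n)) : Subgroup (SLn n F) :=
  (Cfsg.parabolicGL n F (fun i => 1 + i.val - (κ i).val)).comap (incSL n F)

lemma BB_le_PK (κ : Equiv.Perm (Fin n)) : BB n F ≤ PK κ := by
  intro b hb
  rw [Subgroup.mem_comap, parabolicGL_eq]
  apply Bor_le (compLabel_mono _)
  exact fun i j hij => hb i j hij

lemma PK_one : PK (F := F) (1 : Equiv.Perm (Fin n)) = BB n F := by
  apply le_antisymm _ (BB_le_PK 1)
  intro b hb x y hxy
  have h1 : (incSL n F b) ∈ Par F _ := hb
  rw [mem_Par] at h1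
  apply h1
  rw [compLabel_ones, compLabel_ones]
  exact hxy

lemma ss_mem_PK {κ : Equiv.Perm (Fin n)} {j j' : Fin n} (hj : j'.val = j.val + 1)
    (he : Cfsg.compLabel (fun i : Fin n => 1 + i.val - (κ i).val) j = Cfsg.compLabel (fun i : Fin n => 1 + i.val - (κ i).val) j') :
    ss hj ∈ PK (F := F) κ := by
  have hne := ne_of_succ hj
  rw [Subgroup.mem_comap, parabolicGL_eq, mem_Par]
  intro a b hab
  change (ss (F := F) hj).1 a b = 0
  rw [ss_val]
  by_cases h1 : a = j
  · rw [h1] at hab ⊢
    by_cases h2 : b = j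
    · rw [h2, emb_j_j hne]
      simp
    by_cases h3 : b = j'
    · rw [h3, ← he] at hab
      exact absurd hab (lt_irrefl _)
    · rw [emb_j_o hne _ h2 h3]
  by_cases h2 : a = j'
  · rw [h2] at hab ⊢
    by_cases h3 : b = j
    · rw [h3, he] at hab
      exact absurd hab (lt_irrefl _)
    by_cases h4 : b = j'
    · rw [h4, emb_j'_j' hne]
      simp
    · rw [emb_j'_o hne _ h3 h4]
  · rw [emb_o hne _ h1 h2, if_neg]
    rintro rfl
    exact absurd hab (lt_irrefl _)

/-- **The only irreducible character of `p`-defect zero of `SL_n(F)` is the Steinberg character.** -/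
theorem eq_St (p : ℕ) [hp : Fact p.Prime] [CharP F p] [ρ.IsIrreducible]
    (hIrr : IsIrrCharacter (SLn n F) ρ.character)
    (hdeg : p ^ (Nat.card (SLn n F)).factorization p ∣ finrank ℂ V) : ρ.character = St n F := by
  classical
  haveI : Fintype (SLn n F) := Fintype.ofFinite _
  obtain ⟨h0, hBB, hss⟩ := facts ρ p hdeg
  have hF0pos : 0 < finrank ℂ (Fx ρ (UU n F)) := by
    apply Nat.pos_of_ne_zero
    intro e
    exact h0 (Submodule.finrank_eq_zero.mp e)
  -- parabolic subgroups larger than `B`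
  have hPK : ∀ κ : Equiv.Perm (Fin n), (∀ i, (κ i).val ≤ 1 + i.val) → κ ≠ 1 → Fx ρ (PK (F := F) κ) = ⊥ := by
    intro κ hκ hne
    obtain ⟨i, hi⟩ := exists_two hκ hne
    obtain ⟨j, j', hj, he⟩ := exists_adj (sum_eq_of_perm hκ) (i := i) hi
    rw [eq_bot_iff]
    intro y hy
    have hU : y ∈ Fx ρ (UU n F) := Fx_anti ρ (UU_le_BB.trans (BB_le_PK κ)) hy
    exact (Submodule.mem_bot ℂ).mpr (hss j j' hj y hU (hy _ (ss_mem_PK hj he)))
  -- the inner product
  by_contra hne
  have hinner := Cfsg.Agent.Lib.Char.Ortho.classInner_eq_zero_of_isIrr_of_ne hIrr St_irr hne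
  rw [Cfsg.Agent.Lib.Char.Ortho.classInner_def] at hinner
  have hG0 : (Nat.card (SLn n F) : ℂ) ≠ 0 := Nat.cast_ne_zero.mpr Nat.card_pos.ne'
  let cc : Equiv.Perm (Fin n) → ℂ := fun κ => if ∀ i : Fin n, (κ i).val ≤ 1 + i.val then ((Equiv.Perm.sign κ : ℤ) : ℂ) else 0
  have hreal : ∀ κ, conj (cc κ) = cc κ := by
    intro κ
    simp only [cc]
    split_ifs
    · simp
    · simp
  have hSt : ∀ s : SLn n F, St n F s = ∑ κ, cc κ * (Nat.card (MulAction.fixedBy (SLn n F ⧸ PK (F := F) κ) s) : ℂ) := by
    intro s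
    rw [St, Cfsg.unipotentCharacterGL]
    apply Finset.sum_congr rfl
    intro κ _
    simp only [cc]
    by_cases c : ∀ i : Fin n, (κ i).val ≤ 1 + i.val
    · rw [if_pos c, if_pos c]
      congr 1
      rw [Cfsg.fixedPointCharacter, card_fixed_comap (incSL n F) _ (fun g => exists_SL_mul _ g) s]
    · rw [if_neg c, if_neg c, zero_mul]
  have hsum : ∑ s : SLn n F, ρ.character s * conj (St n F s) =
      (Nat.card (SLn n F) : ℂ) * (finrank ℂ (Fx ρ (UU n F)) : ℂ) := by
    have e1 : ∀ s : SLn n F, ρ.character s * conj (St n F s) =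
        ∑ κ, cc κ * (ρ.character s * (Nat.card (MulAction.fixedBy (SLn n F ⧸ PK (F := F) κ) s) : ℂ)) := by
      intro s
      rw [hSt, map_sum, Finset.mul_sum]
      apply Finset.sum_congr rfl
      intro κ _
      rw [map_mul, hreal, Complex.conj_natCast]
      ring
    simp_rw [e1]
    rw [Finset.sum_comm, Finset.sum_eq_single (1 : Equiv.Perm (Fin n))]
    · rw [← Finset.mul_sum, sum_char_mul_fix ρ, PK_one, hBB]
      have : cc 1 = 1 := by
        simp only [cc]
        rw [if_pos (fun i => by simp)]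
        simp
      rw [this, one_mul]
    · intro κ _ hκ
      rw [← Finset.mul_sum, sum_char_mul_fix ρ]
      by_cases c : ∀ i : Fin n, (κ i).val ≤ 1 + i.val
      · rw [hPK κ c hκ, finrank_bot]
        simp
      · simp only [cc]
        rw [if_neg c, zero_mul]
    · intro hn
      exact (hn (Finset.mem_univ _)).elim
  rw [hsum, inv_mul_cancel_left₀ hG0] at hinner
  have : finrank ℂ (Fx ρ (UU n F)) = 0 := by exact_mod_cast hinner
  omega

end main

end Cfsg.Agent.Lib.SLnBlock.Zero
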