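/-
Every `p`-block of `SL_n(F)`, `F` of characteristic `p`, has defect zero or full defect.
-/
import Mathlib
import Cfsg.Agent.Lib.SLnBlock.Zero
import Cfsg.Agent.Lib.KS71.BlockTwo
import Cfsg.Agent.Lib.BlockH.Idem
import Cfsg.Agent.Lib.Blocks.Local

set_option autoImplicit false
set_option linter.unusedSectionVars false
set_option linter.unusedVariables false
set_option linter.unusedSimpArgs false
set_option linter.style.haveILetI false

namespace Cfsg.Agent.Lib.SLnBlock.Full

open Cfsg Matrix Module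
open Cfsg.Agent.Lib.SLnBlock.Sys Cfsg.Agent.Lib.SLnBlock.Zero
open Cfsg.Agent.Lib.KS71.BlockTwo

variable {n : ℕ} {F : Type*} [Field F]

/-- The action on column vectors. -/
def gact (g : SLn n F) (v : Fin n → F) : Fin n → F := g.1 *ᵥ v

lemma gact_mul (g h : SLn n F) (v : Fin n → F) : gact (g * h) v = gact g (gact h v) := by
  simp [gact, Matrix.SpecialLinearGroup.coe_mul, Matrix.mulVec_mulVec]

lemma gact_one (v : Fin n → F) : gact (1 : SLn n F) v = v := by
  simp [gact, Matrix.SpecialLinearGroup.coe_one]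

lemma gact_add (g : SLn n F) (v w : Fin n → F) : gact g (v + w) = gact g v + gact g w := Matrix.mulVec_add _ _ _

lemma gact_sub (g : SLn n F) (v w : Fin n → F) : gact g (v - w) = gact g v - gact g w := Matrix.mulVec_sub _ _ _

lemma gact_smul (g : SLn n F) (c : F) (v : Fin n → F) : gact g (c • v) = c • gact g v := Matrix.mulVec_smul _ _ _

lemma gact_inv_self (g : SLn n F) (v : Fin n → F) : gact g⁻¹ (gact g v) = v := by
  rw [← gact_mul, inv_mul_cancel, gact_one]

lemma gact_self_inv (g : SLn n F) (v : Fin n → F) : gact g (gact g⁻¹ v) = v := by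
  rw [← gact_mul, mul_inv_cancel, gact_one]

/-- The vectors fixed by a subgroup. -/
def fixS (D : Subgroup (SLn n F)) : Submodule F (Fin n → F) where
  carrier := {v | ∀ d ∈ D, gact d v = v}
  add_mem' := fun {a b} ha hb d hd => by rw [gact_add, ha d hd, hb d hd]
  zero_mem' := fun d _ => Matrix.mulVec_zero _
  smul_mem' := fun c v hv d hd => by rw [gact_smul, hv d hd]

lemma mem_fixS {D : Subgroup (SLn n F)} {v : Fin n → F} : v ∈ fixS D ↔ ∀ d ∈ D, gact d v = v := Iff.rfl

lemma fix_norm {D : Subgroup (SLn n F)} {g : SLn n F} (hg : g ∈ Subgroup.normalizer (D : Set (SLn n F)))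
    {v : Fin n → F} (hv : v ∈ fixS D) : gact g v ∈ fixS D := by
  intro d hd
  have h1 : g⁻¹ * d * g ∈ D := by
    apply (Subgroup.mem_normalizer_iff.mp hg _).mpr
    have : g * (g⁻¹ * d * g) * g⁻¹ = d := by group
    rw [this]
    exact hd
  have h2 := hv _ h1
  calc gact d (gact g v) = gact g (gact (g⁻¹ * d * g) v) := by
        rw [← gact_mul, ← gact_mul]
        congr 1
        group
    _ = gact g v := by rw [h2]

/-- The elements acting trivially on `W` and on the quotient by `W`. -/
def RR (W : Submodule F (Fin n → F)) : Subgroup (SLn n F) where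
  carrier := {g | (∀ v, gact g v - v ∈ W) ∧ ∀ v ∈ W, gact g v = v}
  mul_mem' := fun {a b} ha hb => by
    refine ⟨fun v => ?_, fun v hv => ?_⟩
    · have e : gact (a * b) v - v = (gact a (gact b v) - gact b v) + (gact b v - v) := by
        rw [gact_mul]
        abel
      rw [e]
      exact W.add_mem (ha.1 _) (hb.1 _)
    · rw [gact_mul, hb.2 v hv, ha.2 v hv]
  one_mem' := ⟨fun v => by rw [gact_one, sub_self]; exact W.zero_mem, fun v _ => gact_one v⟩
  inv_mem' := fun {a} ha => by
    refine ⟨fun v => ?_, fun v hv => ?_⟩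
    · have e : gact a⁻¹ v - v = - (gact a (gact a⁻¹ v) - gact a⁻¹ v) := by
        rw [gact_self_inv]
        abel
      rw [e]
      exact W.neg_mem (ha.1 _)
    · have := gact_inv_self a v
      rwa [ha.2 v hv] at this

lemma mem_RR {W : Submodule F (Fin n → F)} {g : SLn n F} :
    g ∈ RR W ↔ (∀ v, gact g v - v ∈ W) ∧ ∀ v ∈ W, gact g v = v := Iff.rfl

lemma RR_isPGroup [NeZero n] (p : ℕ) [Fact p.Prime] [CharP F p] (W : Submodule F (Fin n → F)) :
    IsPGroup p (RR W) := by
  rintro ⟨g, hg⟩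
  have hN : (g.1 - 1) * (g.1 - 1) = 0 := by
    apply Matrix.mulVec_injective
    funext v
    rw [← Matrix.mulVec_mulVec, Matrix.zero_mulVec]
    have e : ∀ w : Fin n → F, (g.1 - 1) *ᵥ w = gact g w - w := by
      intro w
      rw [Matrix.sub_mulVec, Matrix.one_mulVec]
      rfl
    rw [e v, e, hg.2 _ (hg.1 v), sub_self]
  obtain ⟨m, hm⟩ := exists_pow_eq_one_of_nilp (F := F) (n := n) p (g := g) ⟨2, by rw [pow_two, hN]⟩
  refine ⟨m, Subtype.ext ?_⟩
  simpa using hm

lemma RR_conj {W : Submodule F (Fin n → F)} {g r : SLn n F} (hg : ∀ v ∈ W, gact g v ∈ W)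
    (hg' : ∀ v ∈ W, gact g⁻¹ v ∈ W) (hr : r ∈ RR W) : g * r * g⁻¹ ∈ RR W := by
  refine ⟨fun v => ?_, fun v hv => ?_⟩
  · have e : gact (g * r * g⁻¹) v - v = gact g (gact r (gact g⁻¹ v) - gact g⁻¹ v) := by
      rw [gact_sub, gact_self_inv, gact_mul, gact_mul]
    rw [e]
    exact hg _ (hr.1 _)
  · rw [gact_mul, gact_mul, hr.2 _ (hg' v hv), gact_self_inv]

/-! ### Transvections -/

/-- The row vector of a linear form. -/
def rowOf (f : (Fin n → F) →ₗ[F] F) : Fin n → F := fun b => f (fun j => if b = j then 1 else 0)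

lemma dot_rowOf (f : (Fin n → F) →ₗ[F] F) (v : Fin n → F) : rowOf f ⬝ᵥ v = f v := by
  rw [LinearMap.pi_apply_eq_sum_univ f v, dotProduct]
  apply Finset.sum_congr rfl
  intro b _
  rw [smul_eq_mul, mul_comm]
  rfl

/-- A transvection. -/
def tv (u : Fin n → F) (f : (Fin n → F) →ₗ[F] F) (hfu : f u = 0) : SLn n F :=
  ⟨1 + vecMulVec u (rowOf f), by
    rw [Matrix.vecMulVec_eq Unit, Matrix.det_one_add_replicateCol_mul_replicateRow, dot_rowOf, hfu, add_zero]⟩

lemma tv_act (u : Fin n → F) (f : (Fin n → F) →ₗ[F] F) (hfu : f u = 0) (v : Fin n → F) :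
    gact (tv u f hfu) v = v + f v • u := by
  show (1 + vecMulVec u (rowOf f)) *ᵥ v = v + f v • u
  rw [Matrix.add_mulVec, Matrix.one_mulVec, Matrix.vecMulVec_mulVec, dot_rowOf, op_smul_eq_smul]

lemma tv_mem_RR {W : Submodule F (Fin n → F)} {u : Fin n → F} (hu : u ∈ W) {f : (Fin n → F) →ₗ[F] F}
    (hf : W ≤ LinearMap.ker f) : tv u f (LinearMap.mem_ker.mp (hf hu)) ∈ RR W := by
  refine ⟨fun v => ?_, fun v hv => ?_⟩
  · rw [tv_act, add_sub_cancel_left]
    exact W.smul_mem _ hu
  · rw [tv_act, LinearMap.mem_ker.mp (hf hv), zero_smul, add_zero]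

lemma step_pow (N : Matrix (Fin n) (Fin n) F) (l a b : F) (hN : N * N = 0) :
    (a • (1 : Matrix (Fin n) (Fin n) F) + b • N) * (l • 1 + N) = (a * l) • 1 + (a + b * l) • N := by
  simp only [add_mul, mul_add, smul_mul_assoc, mul_smul_comm, one_mul, mul_one, hN, smul_zero, add_zero, smul_smul]
  module

lemma pow_formula (N : Matrix (Fin n) (Fin n) F) (l : F) (hN : N * N = 0) (k : ℕ) :
    (l • (1 : Matrix (Fin n) (Fin n) F) + N) ^ (k + 1) = l ^ (k + 1) • 1 + (((k + 1 : ℕ) : F) * l ^ k) • N := by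
  induction k with
  | zero => simp
  | succ k ih =>
    rw [pow_succ, ih, step_pow N l _ _ hN]
    congr 2
    · ring
    · push_cast
      ring

/-- An element of order prime to `p` commuting with `RR W` is a scalar. -/
theorem scalar_of_comm (p : ℕ) [Fact p.Prime] [CharP F p] [Finite F] {W : Submodule F (Fin n → F)}
    (h0 : W ≠ ⊥) (h1 : W ≠ ⊤) {x : SLn n F} (hp : ¬ p ∣ orderOf x)
    (hcomm : ∀ g ∈ RR W, g * x = x * g) : ∃ l : F, x.1 = l • 1 := by
  classical
  have star : ∀ {u : Fin n → F} (hu : u ∈ W) {f : (Fin n → F) →ₗ[F] F} (hf : W ≤ LinearMap.ker f) (v : Fin n → F),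
      f v • gact x u = f (gact x v) • u := by
    intro u hu f hf v
    have h2 := hcomm _ (tv_mem_RR hu hf)
    have h3 := congrArg (fun g => gact g v) h2
    simp only [gact_mul, tv_act, gact_add, gact_smul] at h3
    exact (add_left_cancel h3).symm
  obtain ⟨f₀, hf₀, hWf₀⟩ := W.exists_le_ker_of_lt_top (lt_top_iff_ne_top.mpr h1)
  obtain ⟨v₁, hv₁⟩ : ∃ v, f₀ v ≠ 0 := by
    by_contra hall
    push Not at hall
    exact hf₀ (LinearMap.ext hall)
  let v₀ := (f₀ v₁)⁻¹ • v₁
  have hv₀ : f₀ v₀ = 1 := by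
    simp only [v₀, map_smul, smul_eq_mul]
    exact inv_mul_cancel₀ hv₁
  let l := f₀ (gact x v₀)
  have hl : ∀ u ∈ W, gact x u = l • u := by
    intro u hu
    have := star hu hWf₀ v₀
    rwa [hv₀, one_smul] at this
  obtain ⟨u₀, hu₀, hu₀0⟩ := W.ne_bot_iff.mp h0
  have hq : ∀ v, gact x v - l • v ∈ W := by
    intro v
    by_contra hv
    obtain ⟨f, hf1, hf2⟩ := Submodule.exists_dual_map_eq_bot_of_notMem hv inferInstance
    have hWf : W ≤ LinearMap.ker f := by
      intro w hw
      rw [LinearMap.mem_ker]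
      have : f w ∈ W.map f := Submodule.mem_map_of_mem hw
      rw [hf2] at this
      exact (Submodule.mem_bot F).mp this
    have h3 := star hu₀ hWf v
    rw [hl u₀ hu₀, smul_smul] at h3
    have h4 : (f v * l - f (gact x v)) • u₀ = 0 := by
      rw [sub_smul, h3, sub_self]
    have h5 := (smul_eq_zero.mp h4).resolve_right hu₀0
    apply hf1
    rw [map_sub, map_smul, smul_eq_mul, mul_comm l]
    linear_combination -h5
  -- the nilpotent part
  let N : Matrix (Fin n) (Fin n) F := x.1 - l • 1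
  have hNv : ∀ v, N *ᵥ v = gact x v - l • v := by
    intro v
    simp only [N]
    rw [Matrix.sub_mulVec, Matrix.smul_mulVec, Matrix.one_mulVec]
    rfl
  have hNN : N * N = 0 := by
    apply Matrix.mulVec_injective
    funext v
    rw [← Matrix.mulVec_mulVec, Matrix.zero_mulVec, hNv v, hNv, hl _ (hq v), sub_self]
  have hxN : x.1 = l • 1 + N := by
    simp only [N]
    abel
  haveI : Finite (SLn n F) := inferInstance
  obtain ⟨o', ho'⟩ : ∃ o', orderOf x = o' + 1 := Nat.exists_eq_succ_of_ne_zero (orderOf_pos x).ne'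
  have hpow : x.1 ^ (o' + 1) = 1 := by
    rw [← Matrix.SpecialLinearGroup.coe_pow, ← ho', pow_orderOf_eq_one, Matrix.SpecialLinearGroup.coe_one]
  rw [hxN, pow_formula N l hNN] at hpow
  refine ⟨l, ?_⟩
  by_cases hN0 : N = 0
  · rw [hxN, hN0, add_zero]
  exfalso
  have h5 : (l ^ (o' + 1) - 1) • N = 0 := by
    have h6 := congrArg (fun A => A * N) hpow
    simp only [add_mul, smul_mul_assoc, hNN, smul_zero, add_zero, one_mul] at h6
    rw [sub_smul, one_smul, h6, sub_self]
  have h7 : l ^ (o' + 1) = 1 := by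
    have := (smul_eq_zero.mp h5).resolve_right hN0
    exact sub_eq_zero.mp this
  rw [h7, one_smul, add_eq_left] at hpow
  have h8 := (smul_eq_zero.mp hpow).resolve_right hN0
  have hl0 : l ≠ 0 := by
    rintro e
    rw [e, zero_pow (Nat.succ_ne_zero _)] at h7
    exact zero_ne_one h7
  have h9 : ((o' + 1 : ℕ) : F) = 0 := (mul_eq_zero.mp h8).resolve_right (pow_ne_zero _ hl0)
  rw [CharP.cast_eq_zero_iff F p, ← ho'] at h9
  exact hp h9

/-! ### The main result -/

/-- A `p`-subgroup has a non-zero fixed vector. -/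
lemma exists_fixed [Fintype F] [NeZero n] (p : ℕ) [hp : Fact p.Prime] [CharP F p] (D : Subgroup (SLn n F))
    (hD : IsPGroup p D) : fixS D ≠ ⊥ := by
  classical
  letI : MulAction D (Fin n → F) :=
    { smul := fun d v => gact d.1 v
      one_smul := fun v => gact_one v
      mul_smul := fun a b v => gact_mul a.1 b.1 v }
  have hcard : p ∣ Nat.card (Fin n → F) := by
    rw [Nat.card_eq_fintype_card (α := Fin n → F), Fintype.card_fun, Fintype.card_fin]
    refine dvd_pow ?_ (NeZero.ne n)
    obtain ⟨f, -, hf⟩ := FiniteField.card F p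
    rw [hf]
    exact dvd_pow_self p f.ne_zero
  have hz : (0 : Fin n → F) ∈ MulAction.fixedPoints D (Fin n → F) := by
    intro d
    show gact d.1 (0 : Fin n → F) = 0
    exact Matrix.mulVec_zero _
  obtain ⟨b, hb, hne⟩ := hD.exists_fixed_point_of_prime_dvd_card_of_fixed_point (Fin n → F) hcard hz
  rw [Submodule.ne_bot_iff]
  refine ⟨b, fun d hd => hb ⟨d, hd⟩, Ne.symm hne⟩

lemma fixS_ne_top {D : Subgroup (SLn n F)} (hD : D ≠ ⊥) : fixS D ≠ ⊤ := by
  intro e
  apply hD
  rw [eq_bot_iff]
  intro d hd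
  rw [Subgroup.mem_bot]
  apply Subtype.ext
  rw [Matrix.SpecialLinearGroup.coe_one]
  apply Matrix.mulVec_injective
  funext v
  have hv : v ∈ fixS D := by
    rw [e]
    trivial
  rw [Matrix.one_mulVec]
  exact hv d hd

variable [Fintype F]

/-- **Every block of `SL_n(F)` in the defining characteristic has defect zero or full defect.** -/
theorem defect_full [NeZero n] (p : ℕ) [hp : Fact p.Prime] [CharP F p] (M : Ideal AlgInt) (hM : IsPModular p M)
    {B : Set (IrrCharacter (SLn n F))} (hB : IsPBlock M B) :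
    blockDefect p B = 0 ∨ blockDefect p B = (Nat.card (SLn n F)).factorization p := by
  classical
  haveI : Fintype (SLn n F) := Fintype.ofFinite _
  haveI : M.IsPrime := hM.2.1.isPrime
  obtain ⟨D, hD⟩ := exists_defect (G := SLn n F) hM hB
  have hcard := Cfsg.Agent.S0908.result p M hM B hB D hD
  have hDp : IsPGroup p D := IsPGroup.of_card hcard
  by_cases hbot : D = ⊥
  · left
    rw [hbot, Subgroup.card_bot] at hcard
    by_contra h0
    have := Nat.one_lt_pow h0 hp.out.one_lt
    omega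
  · right
    have hcore := Cfsg.Agent.S0955.result p M hM B hB D hD
    obtain ⟨x, hx, P, hP⟩ := hD
    have hxp : ¬ p ∣ orderOf x := by
      intro h
      apply hx.2.1
      rw [Cfsg.Agent.Lib.BlockH.Idem.blockCoeff_eq_zero_of_dvd_orderOf hM hB h]
      exact Cfsg.Agent.Lib.Blocks.Local.memLocalIdeal_zero
    set N := Subgroup.normalizer (D : Set (SLn n F)) with hN
    let W := fixS D
    have hW0 : W ≠ ⊥ := exists_fixed p D hDp
    have hW1 : W ≠ ⊤ := fixS_ne_top hbot
    have hnW : ∀ g ∈ N, ∀ v ∈ W, gact g v ∈ W := fun g hg v hv => fix_norm hg hv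
    have hnR : ∀ g ∈ N, ∀ r ∈ RR W, g * r * g⁻¹ ∈ RR W :=
      fun g hg r hr => RR_conj (hnW g hg) (hnW g⁻¹ (inv_mem hg)) hr
    have hRp : IsPGroup p (RR W) := RR_isPGroup p W
    have hDN : D ≤ Subgroup.normalizer ((RR W : Subgroup (SLn n F)) : Set (SLn n F)) := by
      intro d hd
      have hdN : d ∈ N := Subgroup.le_normalizer hd
      rw [Subgroup.mem_normalizer_iff]
      intro r
      refine ⟨fun hr => hnR d hdN r hr, fun hr => ?_⟩
      have := hnR d⁻¹ (inv_mem hdN) _ hr
      have e : d⁻¹ * (d * r * d⁻¹) * d⁻¹⁻¹ = r := by group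
      rwa [e] at this
    have hVp : IsPGroup p (D ⊔ RR W : Subgroup (SLn n F)) := hDp.to_sup_of_normal_right' hRp hDN
    have hsup : ∀ g ∈ N, ∀ k ∈ (D ⊔ RR W : Subgroup (SLn n F)), g * k * g⁻¹ ∈ (D ⊔ RR W : Subgroup (SLn n F)) := by
      intro g hg k hk
      have hle : (D ⊔ RR W : Subgroup (SLn n F)) ≤ (D ⊔ RR W : Subgroup (SLn n F)).comap (MulAut.conj g).toMonoidHom := by
        apply sup_le
        · intro d hd
          exact (le_sup_left : D ≤ D ⊔ RR W) ((Subgroup.mem_normalizer_iff.mp hg d).mp hd)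
        · intro r hr
          exact (le_sup_right : RR W ≤ D ⊔ RR W) (hnR g hg r hr)
      exact hle hk
    have hle : (D ⊔ RR W : Subgroup (SLn n F)) ⊓ N ≤ D := by
      apply le_of_core (p := p) hcore inf_le_right (hVp.to_le inf_le_left)
      rintro g hg k ⟨hk1, hk2⟩
      exact ⟨hsup g hg k hk1, N.mul_mem (N.mul_mem hg hk2) (N.inv_mem hg)⟩
    have hDe : D = D ⊔ RR W := by
      by_contra hne
      obtain ⟨y, hy1, hy2, hy3⟩ := exists_norm hVp le_sup_left hne
      exact hy2 (hle ⟨hy1, hy3⟩)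
    have hRD : RR W ≤ D := by
      rw [hDe]
      exact le_sup_right
    have hDC : ∀ d ∈ D, d * x = x * d := by
      intro d hd
      rw [hP] at hd
      obtain ⟨c, -, rfl⟩ := hd
      have := c.2
      rw [Subgroup.mem_centralizer_iff] at this
      exact (this x rfl).symm
    obtain ⟨l, hl⟩ := scalar_of_comm p hW0 hW1 hxp (fun g hg => hDC g (hRD hg))
    have hcent : Subgroup.centralizer ({x} : Set (SLn n F)) = ⊤ := by
      rw [eq_top_iff]
      intro g _
      rw [Subgroup.mem_centralizer_iff]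
      rintro _ rfl
      apply Subtype.ext
      rw [Matrix.SpecialLinearGroup.coe_mul, Matrix.SpecialLinearGroup.coe_mul, hl, Matrix.smul_mul, Matrix.mul_smul,
        one_mul, mul_one]
    have hC : Nat.card (Subgroup.centralizer ({x} : Set (SLn n F))) = Nat.card (SLn n F) := by
      rw [hcent]
      exact Subgroup.card_top
    have h1 : Nat.card D = Nat.card P := by
      rw [hP]
      exact Nat.card_congr (Subgroup.equivMapOfInjective _ _ (Subgroup.subtype_injective _)).symm.toEquiv
    have h2 := Sylow.card_eq_multiplicity P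
    rw [hC] at h2
    rw [h1, h2] at hcard
    exact (Nat.pow_right_injective hp.out.two_le hcard).symm

end Cfsg.Agent.Lib.SLnBlock.Full
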